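import Cfsg.Agent.Lib.Helper93.CG11.Defs
import Cfsg.Agent.Lib.Helper80.NseM11.Cent

/-!
# S3413, package [COP] (helper91)

`|G| = 7920`, `x` commuting with exactly `11` elements: a normal subgroup of order prime to `11`
is trivial.
-/

set_option autoImplicit false

namespace Cfsg.Agent.Lib.Helper91.CG11

open Cfsg.Agent.Lib.Helper93.CG11
open scoped Pointwise

universe u

/-- Some Sylow `p`-subgroup of a normal subgroup `N` of order prime to `11` is normalized by an
element `x` with `x ^ 11 = 1`. -/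
theorem fixed_sylow_of_not_dvd {G : Type u} [Group G] [Finite G] (N : Subgroup G)
    [hN : N.Normal] (hcard : ¬ 11 ∣ Nat.card N) (x : G) (hx : x ^ 11 = 1) (p : ℕ)
    [Fact p.Prime] :
    ∃ P : Sylow p N, ∀ n : N, n ∈ P →
      (⟨x * n * x⁻¹, hN.conj_mem n.1 n.2 x⟩ : N) ∈ P := by
  classical
  have : Fact (Nat.Prime 11) := ⟨by norm_num⟩
  have : Fintype (Sylow p N) := Fintype.ofFinite _
  let g : MulAut N := MulAut.conjNormal x
  have hg : g ^ 11 = 1 := by
    show (MulAut.conjNormal x : MulAut N) ^ 11 = 1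
    rw [← map_pow, hx, map_one]
  let σ : Equiv.Perm (Sylow p N) := MulAction.toPerm g
  have hσ : σ ^ 11 ^ 1 = 1 := by
    rw [pow_one]
    have h0 : σ = MulAction.toPermHom (MulAut N) (Sylow p N) g := rfl
    rw [h0, ← map_pow, hg, map_one]
  have hnd : ¬ 11 ∣ Fintype.card (Sylow p N) := by
    intro h
    rw [← Nat.card_eq_fintype_card] at h
    obtain ⟨P⟩ : Nonempty (Sylow p N) := inferInstance
    have h1 : Nat.card (Sylow p N) ∣ (P : Subgroup N).index := Sylow.card_dvd_index P
    have h2 : (P : Subgroup N).index ∣ Nat.card N := Subgroup.index_dvd_card _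
    exact hcard (h.trans (h1.trans h2))
  obtain ⟨P, hP⟩ := Equiv.Perm.exists_fixed_point_of_prime hnd hσ
  refine ⟨P, ?_⟩
  intro n hn
  have h1 : g • n ∈ g • (P : Subgroup N) := Subgroup.smul_mem_pointwise_smul _ _ _ hn
  have h2 : g • P = P := hP
  have h3 : g • (P : Subgroup N) = (P : Subgroup N) := by
    rw [← Sylow.pointwise_smul_def, h2]
  rw [h3] at h1
  have h4 : g • n = ⟨x * n * x⁻¹, hN.conj_mem n.1 n.2 x⟩ := by
    apply Subtype.ext
    show ((MulAut.conjNormal x : MulAut N) n : G) = x * n * x⁻¹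
    rw [MulAut.conjNormal_apply]
  rw [h4] at h1
  exact h1

/-- The centralizer of `x` has `11` elements. -/
theorem card_centralizer_of_card_commute {G : Type u} [Group G] (x : G) (n : ℕ)
    (hx : Nat.card {h : G // h * x = x * h} = n) :
    Nat.card (Subgroup.centralizer ({x} : Set G)) = n := by
  rw [← hx]
  apply Nat.card_congr
  refine Equiv.subtypeEquivRight ?_
  intro h
  rw [Subgroup.mem_centralizer_singleton_iff]

/-- `x ^ 11 = 1`. -/
theorem pow_eleven_of_card_commute {G : Type u} [Group G] (x : G)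
    (hx : Nat.card {h : G // h * x = x * h} = 11) : x ^ 11 = 1 := by
  have hC := card_centralizer_of_card_commute x 11 hx
  have hxC : x ∈ Subgroup.centralizer ({x} : Set G) :=
    Subgroup.mem_centralizer_singleton_iff.mpr rfl
  have h1 := pow_card_eq_one' (x := (⟨x, hxC⟩ : Subgroup.centralizer ({x} : Set G)))
  rw [hC] at h1
  exact congrArg Subtype.val h1

/-- No prime power `p ^ k > 1` dividing `720` is `1` modulo `11`. -/
theorem cop_arith (p k : ℕ) (hp : p.Prime) (hk : k ≠ 0) (h720 : p ^ k ∣ 720)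
    (hmod : p ^ k % 11 = 1) : False := by
  have h1 : 1 < p ^ k := Nat.one_lt_pow hk hp.one_lt
  have key : ∀ a b : ℕ, a.Prime → b.Prime → a ≠ b → a ∣ p ^ k → b ∣ p ^ k → False := by
    intro a b ha hb hab h1 h2
    have e1 := (Nat.prime_dvd_prime_iff_eq ha hp).1 (ha.dvd_of_dvd_pow h1)
    have e2 := (Nat.prime_dvd_prime_iff_eq hb hp).1 (hb.dvd_of_dvd_pow h2)
    exact hab (e1.trans e2.symm)
  generalize p ^ k = s at *
  have hs : s ∈ Nat.divisors 720 := Nat.mem_divisors.2 ⟨h720, by norm_num⟩
  have hdiv : Nat.divisors 720 = {1, 2, 3, 4, 5, 6, 8, 9, 10, 12, 15, 16, 18, 20, 24, 30, 36, 40,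
      45, 48, 60, 72, 80, 90, 120, 144, 180, 240, 360, 720} := by decide +kernel
  rw [hdiv] at hs
  simp only [Finset.mem_insert, Finset.mem_singleton] at hs
  rcases hs with rfl | rfl | rfl | rfl | rfl | rfl | rfl | rfl | rfl | rfl | rfl | rfl | rfl | rfl
    | rfl | rfl | rfl | rfl | rfl | rfl | rfl | rfl | rfl | rfl | rfl | rfl | rfl | rfl | rfl | rfl
  all_goals first
    | omega
    | exact key 2 3 (by norm_num) (by norm_num) (by norm_num) (by decide) (by decide)
    | exact key 3 5 (by norm_num) (by norm_num) (by norm_num) (by decide) (by decide)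

theorem pkgCop : PkgCop.{u} := by
  intro G _ _ x hG hx N hN h11
  classical
  have : Fact (Nat.Prime 11) := ⟨by norm_num⟩
  have hC := card_centralizer_of_card_commute x 11 hx
  have hx11 := pow_eleven_of_card_commute x hx
  by_contra hne
  have hcard1 : Nat.card N ≠ 1 := fun h => hne (Subgroup.card_eq_one.1 h)
  obtain ⟨p, hp, hpd⟩ := Nat.exists_prime_and_dvd hcard1
  have : Fact p.Prime := ⟨hp⟩
  obtain ⟨S, hS⟩ := fixed_sylow_of_not_dvd N h11 x hx11 p
  have hnorm : ∀ y ∈ ((S : Subgroup N).map N.subtype : Subgroup G),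
      x * y * x⁻¹ ∈ ((S : Subgroup N).map N.subtype : Subgroup G) := by
    rintro y ⟨n, hn, rfl⟩
    exact ⟨⟨x * n * x⁻¹, hN.conj_mem n.1 n.2 x⟩, hS n hn, rfl⟩
  have hmod := Cfsg.Agent.Lib.Helper80.NseM11.nse_conj_card_modEq 11 x hx11
    (((S : Subgroup N).map N.subtype : Subgroup G) : Set G) (Set.toFinite _) hnorm
  have hfix : {y ∈ (((S : Subgroup N).map N.subtype : Subgroup G) : Set G) | x * y = y * x} =
      ((((S : Subgroup N).map N.subtype) ⊓ Subgroup.centralizer {x} : Subgroup G) : Set G) := by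
    ext y
    constructor
    · rintro ⟨h1, h2⟩
      exact Subgroup.mem_inf.mpr ⟨h1, Subgroup.mem_centralizer_singleton_iff.mpr h2.symm⟩
    · intro h
      obtain ⟨h1, h2⟩ := Subgroup.mem_inf.mp h
      exact ⟨h1, (Subgroup.mem_centralizer_singleton_iff.mp h2).symm⟩
  rw [hfix] at hmod
  have e1 : ((((S : Subgroup N).map N.subtype : Subgroup G)) : Set G).ncard =
      Nat.card ((S : Subgroup N).map N.subtype : Subgroup G) := by
    rw [← Nat.card_coe_set_eq]; rfl
  have e2 : ((((S : Subgroup N).map N.subtype) ⊓ Subgroup.centralizer {x} : Subgroup G) :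
      Set G).ncard =
      Nat.card (((S : Subgroup N).map N.subtype) ⊓ Subgroup.centralizer {x} : Subgroup G) := by
    rw [← Nat.card_coe_set_eq]; rfl
  rw [e1, e2] at hmod
  have hcS : Nat.card ((S : Subgroup N).map N.subtype : Subgroup G) =
      Nat.card (S : Subgroup N) := Subgroup.card_map_of_injective N.subtype_injective
  have hSN : Nat.card (S : Subgroup N) ∣ Nat.card N := Subgroup.card_subgroup_dvd_card _
  have hd1 : Nat.card (((S : Subgroup N).map N.subtype) ⊓ Subgroup.centralizer {x} :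
      Subgroup G) ∣ Nat.card ((S : Subgroup N).map N.subtype : Subgroup G) :=
    Subgroup.card_dvd_of_le inf_le_left
  have hd2 : Nat.card (((S : Subgroup N).map N.subtype) ⊓ Subgroup.centralizer {x} :
      Subgroup G) ∣ 11 := by
    rw [← hC]; exact Subgroup.card_dvd_of_le inf_le_right
  have hone : Nat.card (((S : Subgroup N).map N.subtype) ⊓ Subgroup.centralizer {x} :
      Subgroup G) = 1 := by
    rcases (Nat.dvd_prime (by norm_num : Nat.Prime 11)).1 hd2 with h | h
    · exact h
    · exfalso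
      apply h11
      rw [← h]
      exact hd1.trans (hcS ▸ hSN)
  rw [hone, hcS] at hmod
  -- `|S| = p ^ k`, `k ≥ 1`, `p ^ k ∣ 720`, `p ^ k ≡ 1 [MOD 11]`
  have hSpow : Nat.card (S : Subgroup N) = p ^ (Nat.card N).factorization p :=
    S.card_eq_multiplicity
  have hk : (Nat.card N).factorization p ≠ 0 := by
    have hpos : 0 < (Nat.card N).factorization p :=
      hp.factorization_pos_of_dvd Nat.card_pos.ne' hpd
    omega
  have hN7920 : Nat.card N ∣ 7920 := hG ▸ Subgroup.card_subgroup_dvd_card N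
  have hS7920 : Nat.card (S : Subgroup N) ∣ 7920 := hSN.trans hN7920
  have hS11 : ¬ 11 ∣ Nat.card (S : Subgroup N) := fun h => h11 (h.trans hSN)
  have hS720 : Nat.card (S : Subgroup N) ∣ 720 := by
    have h7920 : (7920 : ℕ) = 720 * 11 := by norm_num
    rw [h7920] at hS7920
    exact (Nat.Coprime.dvd_mul_right
      ((Nat.Prime.coprime_iff_not_dvd (by norm_num : Nat.Prime 11)).2 hS11).symm).1 hS7920
  rw [hSpow] at hS720 hmod
  exact cop_arith p _ hp hk hS720 hmod

end Cfsg.Agent.Lib.Helper91.CG11
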